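import Groth.Agent.Sga2lef.H86.DepthEt

/-!
# Étale depth from the restriction maps on étale cohomology
-/

set_option autoImplicit false
universe u
open CategoryTheory CategoryTheory.Limits AlgebraicGeometry Opposite Abelian
open scoped Groth.Agent.Etcore.EtInst
open Groth.Agent.Etcore.EtInst

namespace Groth.Agent.Sga2lef.H86.DepthEtConv

open Groth.Agent.Etcore.HQ Groth.Agent.Etcore.RpushLoc Groth.Agent.Etcore.HpullCalc
  Groth.Agent.Etcore.LimBC1 Groth.Agent.Sga2lef.H86.Dies Groth.Agent.Sga2lef.H86.Tools
  Groth.Agent.Sga2lef.H86.DepthEt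

attribute [local instance] pfl

variable {X U : Scheme.{u}}

section Sections

variable {F G : EtCoh.Ab X} (φ : F ⟶ G) (V : X.Etale)

/-- sections over `V` are global sections of the pullback to `V`. -/
noncomputable def secTop (F : EtCoh.Ab X) (V : X.Etale) (s : EtCoh.sect F V) :
    EtCoh.sect ((EtCoh.pull V.hom).obj F) (EtCoh.top V.left) :=
  H0 V.left ((EtCoh.pull V.hom).obj F) (secV F V s)

theorem secTop_bijective (F : EtCoh.Ab X) (V : X.Etale) : Function.Bijective (secTop F V) :=
  (H0 V.left ((EtCoh.pull V.hom).obj F)).bijective.comp (secV_bijective F V)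

theorem secTop_naturality (s : EtCoh.sect F V) :
    ((EtCoh.pull V.hom).map φ).hom.app (op (EtCoh.top V.left)) (secTop F V s) =
      secTop G V (φ.hom.app (op V) s) := by
  refine (H0_map ((EtCoh.pull V.hom).map φ) (secV F V s)).symm.trans ?_
  exact congrArg (H0 V.left ((EtCoh.pull V.hom).obj G)) (map_secV φ V s)

theorem injective_app_iff :
    Function.Injective (((EtCoh.pull V.hom).map φ).hom.app (op (EtCoh.top V.left))) ↔
      Function.Injective (φ.hom.app (op V)) := by
  have h : ⇑(((EtCoh.pull V.hom).map φ).hom.app (op (EtCoh.top V.left))) ∘ (secTop F V) =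
      (secTop G V) ∘ ⇑(φ.hom.app (op V)) := funext (secTop_naturality φ V)
  constructor
  · intro hi
    have h1 := hi.comp (secTop_bijective F V).1
    rw [h] at h1
    exact h1.of_comp
  · intro hi
    have h1 := (secTop_bijective G V).1.comp hi
    rw [← h] at h1
    intro a b hab
    obtain ⟨a, rfl⟩ := (secTop_bijective F V).2 a
    obtain ⟨b, rfl⟩ := (secTop_bijective F V).2 b
    rw [h1 hab]

theorem surjective_app_iff :
    Function.Surjective (((EtCoh.pull V.hom).map φ).hom.app (op (EtCoh.top V.left))) ↔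
      Function.Surjective (φ.hom.app (op V)) := by
  have h : ⇑(((EtCoh.pull V.hom).map φ).hom.app (op (EtCoh.top V.left))) ∘ (secTop F V) =
      (secTop G V) ∘ ⇑(φ.hom.app (op V)) := funext (secTop_naturality φ V)
  constructor
  · intro hi
    have h1 := hi.comp (secTop_bijective F V).2
    rw [h] at h1
    intro b
    obtain ⟨a, ha⟩ := h1 (secTop G V b)
    exact ⟨a, (secTop_bijective G V).1 ha⟩
  · intro hi
    have h1 := (secTop_bijective G V).2.comp hi
    rw [← h] at h1
    exact h1.of_comp

end Sections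

variable (j : U ⟶ X) [IsOpenImmersion j] (F : EtCoh.Ab X)

theorem injective_comp_iff {A B C : AddCommGrpCat.{u + 1}} (f : A ⟶ B) (g : B ⟶ C) [IsIso g] :
    Function.Injective (f ≫ g) ↔ Function.Injective f :=
  Function.Injective.of_comp_iff (ConcreteCategory.bijective_of_isIso g).1 _

theorem surjective_comp_iff {A B C : AddCommGrpCat.{u + 1}} (f : A ⟶ B) (g : B ⟶ C) [IsIso g] :
    Function.Surjective (f ≫ g) ↔ Function.Surjective f :=
  Function.Surjective.of_comp_iff' (ConcreteCategory.bijective_of_isIso g) _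

section Top

variable {Y' : Scheme.{u}} (g : Y' ⟶ X) [Etale g]

/-- The pullback of the unit in terms of the unit of the base change, on sections. -/
theorem exists_unit_eq (W : Y'.Etale) :
    ∃ (A : AddCommGrpCat.{u + 1}) (a : ((EtCoh.pull g).obj ((EtCoh.push j).obj ((EtCoh.pull j).obj F))).obj.obj
        (op W) ⟶ A)
      (b : ((EtCoh.push (pullback.snd j g)).obj ((EtCoh.pull (pullback.snd j g)).obj
        ((EtCoh.pull g).obj F))).obj.obj (op W) ⟶ A) (_ : IsIso a) (_ : IsIso b),
      ((EtCoh.pull g).map ((EtCoh.pullPushAdj j).unit.app F)).hom.app (op W) ≫ a =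
        ((EtCoh.pullPushAdj (pullback.snd j g)).unit.app ((EtCoh.pull g).obj F)).hom.app (op W) ≫ b := by
  have hsq := IsPullback.of_hasPullback j g
  have hbc : IsIso (EtCoh.baseChange0 j g (pullback.snd j g) (pullback.fst j g)
      hsq.w ((EtCoh.pull j).obj F)) := isIso_baseChange0_of_etale hsq _
  have e := congrArg (fun t => t.hom.app (op W)) (pull_unit_baseChange0 j g (pullback.snd j g)
    (pullback.fst j g) hsq.w F)
  exact ⟨_, (EtCoh.baseChange0 j g (pullback.snd j g) (pullback.fst j g)
      hsq.w ((EtCoh.pull j).obj F)).hom.app (op W), ((EtCoh.push (pullback.snd j g)).map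
      ((Sga4B.HpullSquare.pullSquare g j (pullback.snd j g) (pullback.fst j g) hsq.w).hom.app F)).hom.app (op W),
      inferInstance, inferInstance, e⟩

theorem injective_top_iff (W : Y'.Etale) :
    Function.Injective (((EtCoh.pull g).map ((EtCoh.pullPushAdj j).unit.app F)).hom.app (op W)) ↔
      Function.Injective (((EtCoh.pullPushAdj (pullback.snd j g)).unit.app ((EtCoh.pull g).obj F)).hom.app
        (op W)) := by
  obtain ⟨A, a, b, ha, hb, e⟩ := exists_unit_eq j F g W
  refine (injective_comp_iff _ a).symm.trans (Iff.trans ?_ (injective_comp_iff _ b))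
  rw [e]

theorem surjective_top_iff (W : Y'.Etale) :
    Function.Surjective (((EtCoh.pull g).map ((EtCoh.pullPushAdj j).unit.app F)).hom.app (op W)) ↔
      Function.Surjective (((EtCoh.pullPushAdj (pullback.snd j g)).unit.app ((EtCoh.pull g).obj F)).hom.app
        (op W)) := by
  obtain ⟨A, a, b, ha, hb, e⟩ := exists_unit_eq j F g W
  refine (surjective_comp_iff _ a).symm.trans (Iff.trans ?_ (surjective_comp_iff _ b))
  rw [e]

end Top

theorem injective_unit_iff (V : X.Etale) :
    Function.Injective (((EtCoh.pullPushAdj j).unit.app F).hom.app (op V)) ↔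
      Function.Injective (hp (pullback.snd j V.hom) ((EtCoh.pull V.hom).obj F) 0) := by
  have hV : Etale V.hom := V.prop
  exact (injective_app_iff ((EtCoh.pullPushAdj j).unit.app F) V).symm.trans
    ((injective_top_iff j F V.hom (EtCoh.top V.left)).trans
      ((injective_hp_zero_iff _ _).trans (injective_unitSec_iff _ _)).symm)

theorem surjective_unit_iff (V : X.Etale) :
    Function.Surjective (((EtCoh.pullPushAdj j).unit.app F).hom.app (op V)) ↔
      Function.Surjective (((EtCoh.pullPushAdj (pullback.snd j V.hom)).unit.app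
        ((EtCoh.pull V.hom).obj F)).hom.app (op (EtCoh.top V.left))) := by
  have hV : Etale V.hom := V.prop
  exact (surjective_app_iff ((EtCoh.pullPushAdj j).unit.app F) V).symm.trans
    (surjective_top_iff j F V.hom (EtCoh.top V.left))

/-- The restriction map for `V ×_X U ⟶ V` written with `(EtCoh.bc j).obj V`. -/
theorem res_bc_bijective (V : X.Etale) (n : ℕ)
    (h : Function.Bijective (hp (pullback.snd j V.hom) ((EtCoh.pull V.hom).obj F) n)) :
    Function.Bijective (res F (pullback.fst V.hom j) (pullback.condition :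
      pullback.fst V.hom j ≫ V.hom = pullback.snd V.hom j ≫ j) n) := by
  let e : pullback V.hom j ⟶ pullback j V.hom := (pullbackSymmetry V.hom j).hom
  have he : e ≫ pullback.snd j V.hom = pullback.fst V.hom j := pullbackSymmetry_hom_comp_snd _ _
  have h1 : Function.Bijective (res F (pullback.snd j V.hom)
      (rfl : pullback.snd j V.hom ≫ V.hom = pullback.snd j V.hom ≫ V.hom) n) := by
    have e1 : ⇑(res F (pullback.snd j V.hom)
      (rfl : pullback.snd j V.hom ≫ V.hom = pullback.snd j V.hom ≫ V.hom) n) =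
      ⇑(hpVia (pullback.snd j V.hom) V.hom _ rfl F n) := funext fun x => res_eq_hpVia F _ _ n x
    rw [e1]
    exact (bijective_hpVia_iff _ _ _ _ F n).2 h
  have he2 : e ≫ (pullback.snd j V.hom ≫ V.hom) = pullback.snd V.hom j ≫ j := by
    rw [← Category.assoc, he, pullback.condition]
  have h2 := res_bijective F e he2 n
  have e2 : ⇑(res F (pullback.fst V.hom j) (pullback.condition :
      pullback.fst V.hom j ≫ V.hom = pullback.snd V.hom j ≫ j) n) =
      ⇑(res F e he2 n) ∘ ⇑(res F (pullback.snd j V.hom)
      (rfl : pullback.snd j V.hom ≫ V.hom = pullback.snd j V.hom ≫ V.hom) n) :=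
    funext fun x => (res_res F _ _ e he2 (pullback.fst V.hom j) he pullback.condition n x).symm
  rw [e2]
  exact h2.comp h1

theorem isZero_Rpush_of_bijective (q : ℕ)
    (H : ∀ V : X.Etale, Function.Bijective
      (hp (pullback.snd j V.hom) ((EtCoh.pull V.hom).obj F) (q + 1))) :
    IsZero ((EtCoh.Rpush j (q + 1)).obj ((EtCoh.pull j).obj F)) := by
  rw [isZero_Rpush_iff]
  intro V ξ v
  obtain ⟨ξ', hξ'⟩ := (res_bc_bijective j F V (q + 1) (H V)).2
    (cmp F j (pr j V) (rfl : pr j V ≫ j = pullback.snd V.hom j ≫ j) (q + 1) ξ)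
  obtain ⟨V', k, v', hv', h0⟩ := dies q F V ξ' v
  refine ⟨V', k, v', hv', ?_⟩
  have hk : mm j k ≫ (pullback.snd V.hom j ≫ j) = pullback.snd V'.hom j ≫ j := by
    have := mm_pr j k
    exact (Category.assoc _ _ _).symm.trans (congrArg (fun t => t ≫ j) this)
  refine (cmp_eq_zero_iff F j (pr j V') (rfl : pr j V' ≫ j = pullback.snd V'.hom j ≫ j) (q + 1) _).1 ?_
  rw [← res_cmp F j (pr j V) (rfl : pr j V ≫ j = pullback.snd V.hom j ≫ j) (pr j V')
    (rfl : pr j V' ≫ j = pullback.snd V'.hom j ≫ j) (mm j k) (mm_pr j k) hk (q + 1) ξ, ← hξ']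
  have hc : mm j k ≫ pullback.fst V.hom j = pullback.fst V'.hom j ≫ k.left := by
    exact (EtCoh.isPullback_bc_map j k).w
  have hw : (mm j k ≫ pullback.fst V.hom j) ≫ V.hom = pullback.snd V'.hom j ≫ j :=
    (Category.assoc _ _ _).trans ((congrArg (fun t => mm j k ≫ t) pullback.condition).trans hk)
  refine (res_res F (pullback.fst V.hom j) pullback.condition (mm j k) hk
    (mm j k ≫ pullback.fst V.hom j) rfl hw (q + 1) ξ').trans ?_
  refine (res_res F k.left (Groth.Agent.EtpbcB.Big.et_w k) (pullback.fst V'.hom j) pullback.condition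
    (mm j k ≫ pullback.fst V.hom j) hc.symm hw (q + 1) ξ').symm.trans ?_
  rw [h0, map_zero]
  rfl

/-- The converse: the condition from the restriction maps on all étale `V → X`. -/
theorem cond_of_hp (n : ℕ)
    (H1 : ∀ (V : X.Etale) (p : ℕ), p + 1 < n →
      Function.Bijective (hp (pullback.snd j V.hom) ((EtCoh.pull V.hom).obj F) p))
    (H2 : ∀ (V : X.Etale) (p : ℕ), p + 1 = n →
      Function.Injective (hp (pullback.snd j V.hom) ((EtCoh.pull V.hom).obj F) p)) :
    Cond j F n := by
  have hinj : 1 ≤ n → ∀ V : X.Etale,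
      Function.Injective (((EtCoh.pullPushAdj j).unit.app F).hom.app (op V)) := by
    intro hn V
    rw [injective_unit_iff]
    rcases Nat.lt_or_ge 1 n with h | h
    · exact (H1 V 0 (by omega)).1
    · exact H2 V 0 (by omega)
  refine ⟨fun hn => ?_, fun hn => ?_, fun q hq => ?_⟩
  · have h1 : Mono ((sheafToPresheaf _ _).map ((EtCoh.pullPushAdj j).unit.app F)) := by
      rw [NatTrans.mono_iff_mono_app]
      intro V
      exact (AddCommGrpCat.mono_iff_injective _).2 (hinj hn V.unop)
    exact (sheafToPresheaf X.smallEtaleTopology AddCommGrpCat.{u + 1}).mono_of_mono_map h1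
  · have h1 : IsIso ((sheafToPresheaf _ _).map ((EtCoh.pullPushAdj j).unit.app F)) := by
      rw [NatTrans.isIso_iff_isIso_app]
      intro V
      refine (ConcreteCategory.isIso_iff_bijective _).2 ⟨hinj (by omega) V.unop, ?_⟩
      refine (surjective_unit_iff j F V.unop).2 ?_
      have h2 := (H1 V.unop 0 (by omega))
      rw [bijective_hp_zero_iff, bijective_unitSec_iff] at h2
      exact h2.2
    exact isIso_of_reflects_iso _ (sheafToPresheaf X.smallEtaleTopology AddCommGrpCat.{u + 1})
  · exact isZero_Rpush_of_bijective j F q fun V => H1 V (q + 1) (by omega)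

end Groth.Agent.Sga2lef.H86.DepthEtConv
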